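import Mathlib.LinearAlgebra.Matrix.GeneralLinearGroup.Defs
import Mathlib.LinearAlgebra.Matrix.ToLin
import Mathlib.LinearAlgebra.Matrix.NonsingularInverse
import Mathlib.LinearAlgebra.Basis.VectorSpace
import Mathlib.LinearAlgebra.FiniteDimensional.Basic
import Mathlib.GroupTheory.Exponent
import Mathlib.Tactic.LinearCombination

/-!
Elementary abelian subgroups of order 8 of `GL₃` in odd characteristic.
-/

set_option autoImplicit false

namespace CfsgLib.SylowGLThree

open Matrix

variable {F : Type*} [Field F]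

/-- The vectors which are common eigenvectors, with eigenvalues `±1`, of a set of matrices. -/
def signVecs (T : Set (GL (Fin 3) F)) : Set (Fin 3 → F) :=
  {v | ∀ e ∈ T, (e : Matrix (Fin 3) (Fin 3) F) *ᵥ v = v ∨ (e : Matrix (Fin 3) (Fin 3) F) *ᵥ v = -v}

variable (h2 : (2 : F) ≠ 0)

include h2 in
theorem span_signVecs (E : Subgroup (GL (Fin 3) F)) (hsq : ∀ e ∈ E, e * e = 1)
    (hcomm : ∀ a ∈ E, ∀ b ∈ E, a * b = b * a) (T : Finset (GL (Fin 3) F))
    (hT : (T : Set (GL (Fin 3) F)) ⊆ (E : Set (GL (Fin 3) F))) :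
    Submodule.span F (signVecs (T : Set (GL (Fin 3) F))) = ⊤ := by
  classical
  induction T using Finset.induction_on with
  | empty =>
    refine eq_top_iff.2 fun v _ => Submodule.subset_span ?_
    simp [signVecs]
  | @insert e T he ih =>
    rw [Finset.coe_insert, Set.insert_subset_iff] at hT
    rw [eq_top_iff, ← ih hT.2, Submodule.span_le]
    intro v hv
    set A : Matrix (Fin 3) (Fin 3) F := (e : Matrix (Fin 3) (Fin 3) F)
    have hAA : A * A = 1 := by
      rw [← Units.val_mul, hsq e hT.1, Units.val_one]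
    have hmem : ∀ w, (w = v + A *ᵥ v ∨ w = v - A *ᵥ v) →
        w ∈ signVecs (↑(insert e T) : Set (GL (Fin 3) F)) := by
      intro w hw x hx
      rw [Finset.coe_insert] at hx
      rcases hx with rfl | hx
      · rcases hw with rfl | rfl
        · left
          rw [mulVec_add, mulVec_mulVec, hAA, one_mulVec, add_comm]
        · right
          rw [mulVec_sub, mulVec_mulVec, hAA, one_mulVec, neg_sub]
      · set B : Matrix (Fin 3) (Fin 3) F := (x : Matrix (Fin 3) (Fin 3) F)
        have hBA : B * A = A * B := by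
          have := congrArg (Units.val (α := Matrix (Fin 3) (Fin 3) F)) (hcomm x (hT.2 hx) e hT.1)
          simpa using this
        have hB : B *ᵥ (A *ᵥ v) = A *ᵥ (B *ᵥ v) := by
          rw [mulVec_mulVec, mulVec_mulVec, hBA]
        rcases hv x hx with h | h
        · left
          rcases hw with rfl | rfl
          · rw [mulVec_add, hB, h]
          · rw [mulVec_sub, hB, h]
        · right
          rcases hw with rfl | rfl
          · rw [mulVec_add, hB, h, mulVec_neg, neg_add]
          · rw [mulVec_sub, hB, h, mulVec_neg, neg_sub_neg, neg_sub]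
    have hv' : v = (2 : F)⁻¹ • (v + A *ᵥ v) + (2 : F)⁻¹ • (v - A *ᵥ v) := by
      rw [← smul_add, add_add_sub_cancel, ← two_smul F v, smul_smul, inv_mul_cancel₀ h2, one_smul]
    rw [hv']
    exact add_mem (Submodule.smul_mem _ _ (Submodule.subset_span (hmem _ (Or.inl rfl))))
      (Submodule.smul_mem _ _ (Submodule.subset_span (hmem _ (Or.inr rfl))))

theorem eq_of_mulVec_basis (b : Module.Basis (Fin 3) F (Fin 3 → F)) {M N : Matrix (Fin 3) (Fin 3) F}
    (h : ∀ i, M *ᵥ b i = N *ᵥ b i) : M = N := by
  refine Matrix.ext_iff_mulVec.2 fun v => ?_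
  rw [← b.sum_repr v]
  simp only [mulVec_sum, mulVec_smul, h]

variable [Fintype F] [DecidableEq F]

include h2 in
/-- An elementary abelian subgroup of order `8` of `GL₃` is the group of all diagonal sign matrices in
some basis: it contains `-1`, the elements of order at most `2` commuting with it lie in it, and the
elements commuting with it commute with each other. -/
theorem eight_facts (E : Subgroup (GL (Fin 3) F)) (hsq : ∀ e ∈ E, e * e = 1)
    (hcomm : ∀ a ∈ E, ∀ b ∈ E, a * b = b * a) (h8 : Nat.card E = 8) :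
    (-1 : GL (Fin 3) F) ∈ E ∧
      (∀ g : GL (Fin 3) F, (∀ e ∈ E, g * e = e * g) → g * g = 1 → g ∈ E) ∧
      ∀ g h : GL (Fin 3) F, (∀ e ∈ E, g * e = e * g) → (∀ e ∈ E, h * e = e * h) → g * h = h * g := by
  classical
  have hspan := span_signVecs h2 E hsq hcomm (E : Set (GL (Fin 3) F)).toFinite.toFinset
    (by simp)
  rw [Set.Finite.coe_toFinset] at hspan
  let b₀ := Module.Basis.ofSpan hspan.ge
  have hcard : Nat.card _ = Module.finrank F (Fin 3 → F) := (Module.finrank_eq_nat_card_basis b₀).symm
  rw [Module.finrank_fin_fun] at hcard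
  haveI := Nat.finite_of_card_ne_zero (hcard.trans_ne (by decide))
  let b := b₀.reindex (Finite.equivFinOfCardEq hcard)
  have hb : ∀ i, b i ∈ signVecs (E : Set (GL (Fin 3) F)) := fun i => by
    rw [Module.Basis.reindex_apply]
    exact Module.Basis.ofSpan_subset hspan.ge ⟨_, rfl⟩
  have hne : ∀ i, b i ≠ -b i := fun i hi => by
    have h : (2 : F) • b i = 0 := by
      rw [two_smul]
      nth_rewrite 2 [hi]
      exact add_neg_cancel _
    exact b.ne_zero i ((smul_eq_zero.1 h).resolve_left h2)
  let σ : E → Fin 3 → Bool := fun e i =>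
    decide (((e : GL (Fin 3) F) : Matrix (Fin 3) (Fin 3) F) *ᵥ b i = b i)
  have hσ : ∀ (e : E) (i : Fin 3), ((e : GL (Fin 3) F) : Matrix (Fin 3) (Fin 3) F) *ᵥ b i =
      if σ e i then b i else -b i := by
    intro e i
    simp only [σ, decide_eq_true_eq]
    split_ifs with h
    · exact h
    · exact (hb i e e.2).resolve_left h
  have hinj : Function.Injective σ := fun e e' h => by
    refine Subtype.ext (Units.ext (eq_of_mulVec_basis b fun i => ?_))
    rw [hσ e i, hσ e' i, congrFun h i]
  haveI : Finite E := Nat.finite_of_card_ne_zero (by omega)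
  have hbij : Function.Bijective σ := by
    haveI := Fintype.ofFinite E
    rw [Fintype.bijective_iff_injective_and_card]
    exact ⟨hinj, by rw [← Nat.card_eq_fintype_card, h8]; rfl⟩
  have hdiag : ∀ g : GL (Fin 3) F, (∀ e ∈ E, g * e = e * g) → ∀ i,
      ∃ c : F, (g : Matrix (Fin 3) (Fin 3) F) *ᵥ b i = c • b i := by
    intro g hg i
    obtain ⟨e, he⟩ := hbij.2 fun j => decide (j = i)
    refine ⟨b.repr ((g : Matrix (Fin 3) (Fin 3) F) *ᵥ b i) i, ?_⟩
    set w := (g : Matrix (Fin 3) (Fin 3) F) *ᵥ b i with hw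
    have hew : ((e : GL (Fin 3) F) : Matrix (Fin 3) (Fin 3) F) *ᵥ w = w := by
      rw [hw, mulVec_mulVec, ← Units.val_mul, ← hg e e.2, Units.val_mul, ← mulVec_mulVec, hσ, he]
      simp
    apply b.ext_elem
    intro j
    rw [map_smul, b.repr_self, Finsupp.smul_apply, Finsupp.single_apply, smul_eq_mul]
    by_cases hj : i = j
    · subst hj; simp
    rw [if_neg hj, mul_zero]
    have h' : b.repr (((e : GL (Fin 3) F) : Matrix (Fin 3) (Fin 3) F) *ᵥ w) j = -b.repr w j := by
      conv_lhs => rw [← b.sum_repr w]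
      simp only [mulVec_sum, mulVec_smul, hσ, he, map_sum, map_smul, Finsupp.coe_finsetSum,
        Finset.sum_apply, Finsupp.smul_apply, smul_eq_mul]
      rw [Finset.sum_eq_single j]
      · simp [Ne.symm hj]
      · intro k _ hk
        by_cases hki : k = i <;> simp [hki, hk, hj]
      · simp
    rw [hew] at h'
    have h'' : (2 : F) * b.repr w j = 0 := by linear_combination h'
    exact (mul_eq_zero.1 h'').resolve_left h2
  refine ⟨?_, ?_, ?_⟩
  · obtain ⟨e, he⟩ := hbij.2 fun _ => false
    convert e.2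
    refine Units.ext (eq_of_mulVec_basis b fun i => ?_)
    rw [hσ, he]
    simp [neg_mulVec]
  · intro g hg hgg
    obtain ⟨e, he⟩ := hbij.2 fun i => decide ((g : Matrix (Fin 3) (Fin 3) F) *ᵥ b i = b i)
    convert e.2
    refine Units.ext (eq_of_mulVec_basis b fun i => ?_)
    rw [hσ, he]
    simp only [decide_eq_true_eq]
    split_ifs with h
    · exact h
    · obtain ⟨c, hc⟩ := hdiag g hg i
      have h1 : (g : Matrix (Fin 3) (Fin 3) F) *ᵥ ((g : Matrix (Fin 3) (Fin 3) F) *ᵥ b i) = b i := by
        rw [mulVec_mulVec, ← Units.val_mul, hgg, Units.val_one, one_mulVec]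
      rw [hc, mulVec_smul, hc, smul_smul] at h1
      have h3 : (c * c - 1) • b i = 0 := by rw [sub_smul, h1, one_smul, sub_self]
      have h4 := (smul_eq_zero.1 h3).resolve_right (b.ne_zero i)
      rcases mul_self_eq_one_iff.1 (sub_eq_zero.1 h4) with rfl | rfl
      · exact absurd (by rw [hc, one_smul]) h
      · rw [hc, neg_one_smul]
  · intro g k hg hk
    refine Units.ext (eq_of_mulVec_basis b fun i => ?_)
    obtain ⟨c, hc⟩ := hdiag g hg i
    obtain ⟨d, hd⟩ := hdiag k hk i
    simp only [Units.val_mul, ← mulVec_mulVec, hc, hd, mulVec_smul, smul_smul, mul_comm c d]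

end CfsgLib.SylowGLThree
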