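import Mathlib.GroupTheory.Transfer
import Mathlib.GroupTheory.Sylow
import Mathlib.GroupTheory.Abelianization.Defs
import Mathlib.GroupTheory.Index

/-!
A central involution of a Sylow 2-subgroup outside the derived subgroup which is conjugate to no other
central element yields a subgroup of index 2.
-/

set_option autoImplicit false

namespace CfsgLib.SylowGLThree

open MulAction
open scoped Pointwise

variable {G : Type*} [Group G]

theorem exists_index_two_of_transfer [Finite G] (X : Sylow 2 G) (b : G) (hb : b ∈ (X : Subgroup G))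
    (hb2 : b * b = 1) (hbc : ∀ x ∈ (X : Subgroup G), x * b = b * x)
    (hbX : (⟨b, hb⟩ : (X : Subgroup G)) ∉ commutator ↥(X : Subgroup G))
    (hiso : ∀ n ∈ Subgroup.normalizer ((X : Subgroup G) : Set G), n⁻¹ * b * n = b) :
    ∃ H : Subgroup G, H.index = 2 := by
  classical
  haveI := Fintype.ofFinite (G ⧸ (X : Subgroup G))
  set K : Subgroup G := (X : Subgroup G) with hK
  let φ : ↥K →* Abelianization ↥K := Abelianization.of
  set v₀ := φ ⟨b, hb⟩ with hv₀
  have hv₀1 : v₀ ≠ 1 := fun h => hbX ((QuotientGroup.eq_one_iff _).1 h)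
  -- the value at a coset fixed by `b`
  let f : G ⧸ K → Abelianization ↥K := fun q =>
    if h : q.out⁻¹ * b * q.out ∈ K then φ ⟨_, h⟩ else 1
  have hfix : ∀ q : G ⧸ K, b • q = q ↔ q.out⁻¹ * b * q.out ∈ K := by
    intro q
    conv_lhs => rw [← q.out_eq, MulAction.Quotient.smul_mk, smul_eq_mul]
    rw [QuotientGroup.eq, ← inv_mem_iff (H := K)]
    simp [mul_assoc]
  have hf_eq : ∀ (g : G) (h : g⁻¹ * b * g ∈ K), f (g : G ⧸ K) = φ ⟨_, h⟩ := by
    intro g h
    obtain ⟨k, hk⟩ := QuotientGroup.mk_out_eq_mul K g
    have h' : (g : G ⧸ K).out⁻¹ * b * (g : G ⧸ K).out ∈ K := by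
      rw [hk]
      have := K.mul_mem (K.mul_mem (K.inv_mem k.2) h) k.2
      simpa [mul_assoc] using this
    simp only [f, dif_pos h']
    have e : (⟨_, h'⟩ : ↥K) = k⁻¹ * ⟨_, h⟩ * k := by
      apply Subtype.ext
      simp [hk, mul_assoc]
    rw [e, map_mul, map_mul, map_inv, mul_comm (φ k)⁻¹, inv_mul_cancel_right]
  have hsq : ∀ q, f q * f q = 1 := by
    intro q
    simp only [f]
    split_ifs with h
    · rw [← map_mul, ← map_one φ]
      congr 1
      apply Subtype.ext
      simp only [Subgroup.coe_mul, Subgroup.coe_one]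
      calc q.out⁻¹ * b * q.out * (q.out⁻¹ * b * q.out) = q.out⁻¹ * (b * b) * q.out := by group
        _ = 1 := by rw [hb2]; group
    · exact one_mul 1
  -- the transfer of `b`
  haveI : Fintype (Quotient (orbitRel (Subgroup.zpowers b) (G ⧸ K))) := Fintype.ofFinite _
  have hV : MonoidHom.transfer φ b = ∏ q ∈ Finset.univ.filter (fun q : G ⧸ K => b • q = q), f q := by
    rw [MonoidHom.transfer_eq_prod_quotient_orbitRel_zpowers_quot]
    set Q := Quotient (orbitRel (Subgroup.zpowers b) (G ⧸ K))
    have hper : ∀ q : G ⧸ K, Function.minimalPeriod (b • ·) q = 1 ∨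
        (Function.minimalPeriod (b • ·) q = 2 ∧ ¬ b • q = q) := by
      intro q
      have h1 : Function.minimalPeriod (b • ·) q ∣ 2 := by
        refine Function.IsPeriodicPt.minimalPeriod_dvd ?_
        show b • b • q = q
        rw [smul_smul, hb2, one_smul]
      rcases (Nat.dvd_prime Nat.prime_two).1 h1 with h | h
      · exact Or.inl h
      · refine Or.inr ⟨h, fun hq => ?_⟩
        rw [Function.minimalPeriod_eq_one_iff_isFixedPt.2 (show Function.IsFixedPt (b • ·) q from hq)]
          at h
        exact absurd h (by norm_num)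
    refine (Finset.prod_filter_mul_prod_filter_not _ (fun o : Q => b • o.out = o.out) _).symm.trans ?_
    refine Eq.trans (congrArg₂ (· * ·) ?_ (Finset.prod_eq_one ?_)) (mul_one _)
    · refine Finset.prod_nbij (fun o : Q => o.out) (fun o ho => ?_) (fun o _ o' _ h => Quotient.out_injective h) ?_ ?_
      · simpa using ho
      · intro q hq
        simp only [Finset.coe_filter, Finset.mem_univ, true_and, Set.mem_setOf_eq] at hq
        obtain ⟨⟨z, hz⟩, hzq⟩ := orbitRel_apply.1 (Quotient.exact' (Quotient.out_eq'
          (Quotient.mk'' q : Q)))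
        have hfixz : z • q = q := by
          have : Subgroup.zpowers b ≤ MulAction.stabilizer G q := Subgroup.zpowers_le.2 hq
          exact this hz
        have e : (Quotient.mk'' q : Q).out = q := hzq.symm.trans hfixz
        exact ⟨Quotient.mk'' q, by simp [e, hq], e⟩
      · intro o ho
        simp only [Finset.mem_filter, Finset.mem_univ, true_and] at ho
        have h1 : Function.minimalPeriod (b • ·) o.out = 1 :=
          Function.minimalPeriod_eq_one_iff_isFixedPt.2 ho
        simp only [h1, pow_one, f, dif_pos ((hfix _).1 ho)]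
    · intro o ho
      simp only [Finset.mem_filter, Finset.mem_univ, true_and] at ho
      obtain h | ⟨h, -⟩ := hper o.out
      · exact absurd (Function.minimalPeriod_eq_one_iff_isFixedPt.1 h) ho
      · rw [← map_one φ]
        congr 1
        apply Subtype.ext
        simp [h, pow_two, hb2]
  -- split according to the value
  set Fx := Finset.univ.filter (fun q : G ⧸ K => b • q = q) with hFx
  have hodd : ∀ v : Abelianization ↥K, Odd (Fx.filter fun q => f q = v).card ↔ v = v₀ := by
    intro v
    let Sv : SubMulAction ↥K (G ⧸ K) :=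
      { carrier := {q | b • q = q ∧ f q = v}
        smul_mem' := by
          rintro k q ⟨hq1, hq2⟩
          have hq' := (hfix q).1 hq1
          refine ⟨?_, ?_⟩
          · show b • (k : G) • q = (k : G) • q
            rw [smul_smul, ← hbc k k.2, mul_smul, hq1]
          · have e : (k • q : G ⧸ K) = (((k : G) * q.out : G) : G ⧸ K) := by
              conv_lhs => rw [← q.out_eq]
              rfl
            have e2 : ((k : G) * q.out)⁻¹ * b * ((k : G) * q.out) = q.out⁻¹ * b * q.out := by
              calc _ = q.out⁻¹ * ((k : G)⁻¹ * (b * k)) * q.out := by group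
                _ = _ := by rw [← hbc k k.2]; group
            rw [e, hf_eq _ (e2 ▸ hq'), ← hq2]
            simp only [f, dif_pos hq', e2] }
    haveI : Fintype Sv := Fintype.ofFinite _
    have hcard : (Fx.filter fun q => f q = v).card = Nat.card Sv := by
      rw [← Nat.card_eq_finsetCard]
      exact Nat.card_congr (Equiv.subtypeEquivRight fun q => by simp [hFx, Sv]; rfl)
    have hmod : Nat.card Sv % 2 = Nat.card (fixedPoints ↥K Sv) % 2 :=
      X.2.card_modEq_card_fixedPoints Sv
    have hmodG : Nat.card (G ⧸ K) % 2 = Nat.card (fixedPoints ↥K (G ⧸ K)) % 2 :=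
      X.2.card_modEq_card_fixedPoints (G ⧸ K)
    have hind : ¬ 2 ∣ Nat.card (G ⧸ K) := X.not_dvd_index
    -- a coset fixed by `K` has value `v₀`
    have hfixed : ∀ q : G ⧸ K, q ∈ fixedPoints ↥K (G ⧸ K) → b • q = q ∧ f q = v₀ := by
      intro q hq
      refine ⟨hq ⟨b, hb⟩, ?_⟩
      have hn : q.out⁻¹ ∈ Subgroup.normalizer (K : Set G) := by
        have hle : MulAut.conj q.out⁻¹ • K ≤ K := by
          intro x hx
          rw [Subgroup.mem_pointwise_smul_iff_inv_smul_mem] at hx
          have : ((⟨_, hx⟩ : ↥K) : G) • ((q.out : G) : G ⧸ K) = ((q.out : G) : G ⧸ K) := by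
            rw [QuotientGroup.out_eq']
            exact hq ⟨_, hx⟩
          change ((_ * q.out : G) : G ⧸ K) = (q.out : G ⧸ K) at this
          rw [QuotientGroup.eq] at this
          simpa [mul_assoc] using inv_mem this
        exact Sylow.smul_eq_iff_mem_normalizer.1 (Sylow.ext (Subgroup.eq_of_le_of_card_ge hle
          (le_of_eq (Nat.card_congr (Subgroup.equivSMul (MulAut.conj q.out⁻¹) K).toEquiv))))
      have e : q.out⁻¹ * b * q.out = b := hiso q.out (inv_mem_iff.1 hn)
      have := hf_eq q.out (e.symm ▸ hb)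
      rw [QuotientGroup.out_eq'] at this
      rw [this, hv₀]
      congr 1
      exact Subtype.ext e
    by_cases hv : v = v₀
    · refine iff_of_true ?_ hv
      rw [hcard, Nat.odd_iff, ← Nat.two_dvd_ne_zero, Nat.dvd_iff_mod_eq_zero, hmod]
      have e : Nat.card (fixedPoints ↥K Sv) = Nat.card (fixedPoints ↥K (G ⧸ K)) :=
        Nat.card_congr
          { toFun := fun q => ⟨q.1.1, fun k => congrArg Subtype.val (q.2 k)⟩
            invFun := fun q => ⟨⟨q.1, (hfixed q.1 q.2).1, (hfixed q.1 q.2).2.trans hv.symm⟩,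
              fun k => Subtype.ext (q.2 k)⟩
            left_inv := fun q => rfl
            right_inv := fun q => rfl }
      rw [e, ← hmodG, ← Nat.dvd_iff_mod_eq_zero]
      exact hind
    · refine iff_of_false ?_ hv
      rw [hcard, Nat.odd_iff, hmod]
      have e : Nat.card (fixedPoints ↥K Sv) = 0 := by
        haveI : IsEmpty (fixedPoints ↥K Sv) := ⟨fun q => hv
          ((q.1.2.2).symm.trans (hfixed q.1.1 fun k => congrArg Subtype.val (q.2 k)).2)⟩
        exact Nat.card_of_isEmpty
      rw [e]
      norm_num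
  have hVb : MonoidHom.transfer φ b = v₀ := by
    rw [hV, ← Finset.prod_fiberwise_of_maps_to (g := f) (t := Fx.image f)
      (fun q hq => Finset.mem_image_of_mem f hq)]
    rw [Finset.prod_eq_single v₀]
    · rw [Finset.prod_congr rfl fun q hq => (Finset.mem_filter.1 hq).2, Finset.prod_const]
      obtain ⟨m, hm⟩ := (hodd v₀).2 rfl
      have h2 : v₀ * v₀ = 1 := by
        rw [hv₀, ← map_mul, ← map_one φ]
        congr 1
        exact Subtype.ext hb2
      rw [hm, pow_succ, pow_mul, pow_two, h2, one_pow, one_mul]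
    · intro v hv hne
      obtain ⟨m, hm⟩ := Nat.not_odd_iff_even.1 ((hodd v).not.2 hne)
      obtain ⟨q, hq, rfl⟩ := Finset.mem_image.1 hv
      rw [Finset.prod_congr rfl fun q' hq' => (Finset.mem_filter.1 hq').2, Finset.prod_const, hm,
        pow_add, ← mul_pow, hsq q, one_pow]
    · intro h
      refine Finset.prod_eq_one fun q hq => ?_
      exact absurd (Finset.mem_image.2 ⟨q, (Finset.mem_filter.1 hq).1, (Finset.mem_filter.1 hq).2⟩) h
  set R := (MonoidHom.transfer φ).range
  haveI : Finite (Abelianization ↥K) := Quotient.finite _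
  haveI : Finite R := inferInstance
  have hR : IsPGroup 2 R :=
    (X.2.of_surjective φ (QuotientGroup.mk'_surjective _)).to_subgroup R
  obtain ⟨k, hk⟩ := hR.exists_card_eq
  obtain ⟨j, rfl⟩ : ∃ j, k = j + 1 := by
    refine Nat.exists_eq_succ_of_ne_zero fun h0 => ?_
    subst h0
    have : R = ⊥ := Subgroup.card_eq_one.1 (by simpa using hk)
    exact hv₀1 (Subgroup.mem_bot.1 (this ▸ hVb ▸ MonoidHom.mem_range.2 ⟨b, rfl⟩))
  obtain ⟨L, hL⟩ := Sylow.exists_subgroup_card_pow_prime 2 (n := j) (G := R)
    (by rw [hk]; exact pow_dvd_pow 2 (Nat.le_succ j))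
  refine ⟨L.comap (MonoidHom.transfer φ).rangeRestrict, ?_⟩
  rw [Subgroup.index_comap_of_surjective _ (MonoidHom.rangeRestrict_surjective _)]
  have := L.card_mul_index
  rw [hL, hk, pow_succ] at this
  exact Nat.eq_of_mul_eq_mul_left (pow_pos two_pos j) this

end CfsgLib.SylowGLThree
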